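import Cfsg.Agent.H926.RG.CoreSum
import Cfsg.Agent.H244.Rg.SumsB

/-!
# S5714, core estimate
-/

set_option autoImplicit false

namespace Cfsg.Agent.H926.RG

open Polynomial Module Cfsg.Agent.H141.Rg

/-- almost all elements are good -/
theorem core : ∃ A : ℝ, 0 < A ∧ ∀ (K V : Type) [Field K] [Finite K] [AddCommGroup V] [Module K V] [Finite V] (X : Type) [Group X]
    [Finite X] (σ : K →+* K), (∀ x, σ (σ x) = x) → ∀ (τ : X →* (V →ₗ[K] V)) (s : K[X]), (s = 1 ∨ s = Polynomial.X ^ 2 - 1) →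
    ∀ (c : ℕ → ℝ), (∀ D, 1 ≤ c D) → EL σ τ s c → ∀ (k L : ℕ) (M : ℝ), 0 ≤ M → 1 ≤ k → 1 ≤ L →
    (∀ D, L ≤ D → D ≤ finrank K V → c D * (Nat.card K : ℝ) ^ (-(D : ℝ) / 16) ≤ M) →
    (Nat.card {x : X // ¬ GoodPow (τ x) (smallP (τ x) (Sml L s)) k} : ℝ) ≤
      A * k ^ 3 * ((finrank K V : ℝ) + 1) ^ 3 * M * Nat.card X :=
  core_of_sums H244.Rg.sum_b1 H244.Rg.sum_b2 H244.Rg.sum_rep

end Cfsg.Agent.H926.RG
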