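import Cfsg.Agent.H141.Rg.Lin

/-!
# S5714, core estimate: linear algebra and counting preliminaries

* `deg_le_of_ann` : the degree of an annihilator is at most the dimension;
* `Dv.deg_le`, `dv2_deg_le`, `Rep2.deg_le` : the degrees of factors of the characteristic polynomial;
* `cnt` : the number of elements with a property, as a real number, with its union bounds.
-/

set_option autoImplicit false

namespace Cfsg.Agent.H926.RG

open Polynomial Module Cfsg.Agent.H141.Rg

section lin

variable {K V : Type*} [Field K] [AddCommGroup V] [Module K V]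

theorem aeval_mul_ap (y : V →ₗ[K] V) (p r : K[X]) (v : V) : aeval y (p * r) v = aeval y p (aeval y r v) := by
  rw [map_mul]; rfl

theorem aeval_add_ap (y : V →ₗ[K] V) (p r : K[X]) (v : V) : aeval y (p + r) v = aeval y p v + aeval y r v := by
  rw [map_add]; rfl

/-- the degree of an annihilator is at most the dimension -/
theorem deg_le_of_ann [FiniteDimensional K V] (y : V →ₗ[K] V) (v : V) {g : K[X]}
    (h : ∀ p : K[X], aeval y p v = 0 → g ∣ p) : g.natDegree ≤ finrank K V := by
  let φ : degreeLT K g.natDegree →ₗ[K] V :=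
    { toFun := fun p => aeval y (p : K[X]) v
      map_add' := fun p r => aeval_add_ap y _ _ v
      map_smul' := fun a p => by simp }
  have hinj : Function.Injective φ := by
    rw [← LinearMap.ker_eq_bot, LinearMap.ker_eq_bot']
    intro p hp
    have hd : g ∣ (p : K[X]) := h _ hp
    have hlt : (p : K[X]).degree < g.natDegree := mem_degreeLT.1 p.2
    by_contra hne
    have hne' : (p : K[X]) ≠ 0 := fun h0 => hne (Subtype.ext h0)
    have h1 := natDegree_le_of_dvd hd hne'
    have h2 : (p : K[X]).natDegree < g.natDegree := (natDegree_lt_iff_degree_lt hne').2 hlt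
    omega
  have := LinearMap.finrank_le_finrank_of_injective hinj
  have h3 : finrank K (degreeLT K g.natDegree) = g.natDegree := by
    rw [(degreeLTEquiv K g.natDegree).finrank_eq]; simp
  omega

theorem dvd_of_ap {y : V →ₗ[K] V} {f : K[X]} (hf : Irreducible f) {v : V} (hv : v ≠ 0) (h : aeval y f v = 0)
    {p : K[X]} (hp : aeval y p v = 0) : f ∣ p := by
  by_contra hd
  obtain ⟨a, b, hab⟩ := (hf.coprime_iff_not_dvd.2 hd : IsCoprime f p)
  apply hv
  have : aeval y (a * f + b * p) v = v := by rw [hab]; simp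
  rw [aeval_add_ap, aeval_mul_ap, aeval_mul_ap, h, hp, map_zero, map_zero, add_zero] at this
  exact this.symm

theorem Dv.deg_le [FiniteDimensional K V] {y : V →ₗ[K] V} {f : K[X]} (hf : Irreducible f) (h : Dv y f) :
    f.natDegree ≤ finrank K V := by
  obtain ⟨v, hv, hy⟩ := h
  exact deg_le_of_ann y v fun p hp => dvd_of_ap hf hv hy hp

theorem cop_of_irr {f g : K[X]} (hf : Irr' f) (hg : Irr' g) (hne : f ≠ g) : IsCoprime f g := by
  refine hf.2.1.coprime_iff_not_dvd.2 fun hd => hne ?_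
  exact eq_of_monic_of_associated hf.1 hg.1 (hf.2.1.associated_of_dvd hg.2.1 hd)

theorem dv2_deg_le [FiniteDimensional K V] {y : V →ₗ[K] V} {f g : K[X]} (hf : Irr' f) (hg : Irr' g) (hne : f ≠ g)
    (h : Dv y f) (h' : Dv y g) : f.natDegree + g.natDegree ≤ finrank K V := by
  obtain ⟨v, hv, hy⟩ := h
  obtain ⟨w, hw, hy'⟩ := h'
  have hc := cop_of_irr hf hg hne
  have key : ∀ p : K[X], aeval y p (v + w) = 0 → f * g ∣ p := by
    intro p hp
    refine hc.mul_dvd ?_ ?_
    · have h1 : aeval y (g * p) v = 0 := by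
        have h2 : aeval y (g * p) (v + w) = 0 := by rw [aeval_mul_ap, hp, map_zero]
        have h3 : aeval y (g * p) w = 0 := by rw [mul_comm, aeval_mul_ap, hy', map_zero]
        rwa [map_add, h3, add_zero] at h2
      exact hc.dvd_of_dvd_mul_left (dvd_of_ap hf.2.1 hv hy h1)
    · have h1 : aeval y (f * p) w = 0 := by
        have h2 : aeval y (f * p) (v + w) = 0 := by rw [aeval_mul_ap, hp, map_zero]
        have h3 : aeval y (f * p) v = 0 := by rw [mul_comm, aeval_mul_ap, hy, map_zero]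
        rwa [map_add, h3, zero_add] at h2
      exact hc.symm.dvd_of_dvd_mul_left (dvd_of_ap hg.2.1 hw hy' h1)
  have := deg_le_of_ann y (v + w) key
  rwa [natDegree_mul hf.1.ne_zero hg.1.ne_zero] at this

theorem Rep2.deg_le [FiniteDimensional K V] {y : V →ₗ[K] V} {f : K[X]} (hf : Irr' f) (h : Rep2 y f) :
    2 * f.natDegree ≤ finrank K V := by
  rcases h with h | ⟨v, h2, h1⟩
  · exact h.trans (Submodule.finrank_le _)
  · have key : ∀ p : K[X], aeval y p v = 0 → f ^ 2 ∣ p := by
      intro p hp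
      have h3 : aeval y f (aeval y f v) = 0 := by rw [← aeval_mul_ap, ← sq, h2]
      have h4 : aeval y p (aeval y f v) = 0 := by rw [← aeval_mul_ap, mul_comm, aeval_mul_ap, hp, map_zero]
      obtain ⟨r, rfl⟩ := dvd_of_ap hf.2.1 h1 h3 h4
      have h5 : aeval y r (aeval y f v) = 0 := by rw [← aeval_mul_ap, mul_comm, hp]
      obtain ⟨t, rfl⟩ := dvd_of_ap hf.2.1 h1 h3 h5
      exact ⟨t, by ring⟩
    have := deg_le_of_ann y v key
    rwa [natDegree_pow] at this

end lin

section cnt

variable {X : Type*} [Finite X]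

/-- the number of elements with a property -/
noncomputable def cnt (P : X → Prop) : ℝ := (Nat.card {x : X // P x} : ℝ)

omit [Finite X] in
theorem cnt_nonneg (P : X → Prop) : 0 ≤ cnt P := Nat.cast_nonneg _

theorem cnt_mono {P R : X → Prop} (h : ∀ x, P x → R x) : cnt P ≤ cnt R := by
  refine Nat.cast_le.2 (Nat.card_le_card_of_injective (fun x : {x : X // P x} => (⟨x.1, h _ x.2⟩ : {x : X // R x})) ?_)
  intro a b hab
  exact Subtype.ext (congrArg (fun z : {x : X // R x} => z.1) hab)

omit [Finite X] in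
theorem cnt_or (P R : X → Prop) : cnt (fun x => P x ∨ R x) ≤ cnt P + cnt R := by
  have h : ({x | P x ∨ R x} : Set X).ncard ≤ ({x | P x} : Set X).ncard + ({x | R x} : Set X).ncard :=
    Set.ncard_union_le {x | P x} {x | R x}
  have h' : Nat.card {x : X // P x ∨ R x} ≤ Nat.card {x : X // P x} + Nat.card {x : X // R x} := h
  unfold cnt
  exact_mod_cast h'

omit [Finite X] in
theorem cnt_false {P : X → Prop} (h : ∀ x, ¬ P x) : cnt P = 0 := by
  have : IsEmpty {x : X // P x} := ⟨fun x => h x.1 x.2⟩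
  simp [cnt]

theorem cnt_bex {ι : Type*} (T : Finset ι) (P : ι → X → Prop) :
    cnt (fun x => ∃ i ∈ T, P i x) ≤ ∑ i ∈ T, cnt (P i) := by
  classical
  induction T using Finset.induction_on with
  | empty => rw [cnt_false (by simp)]; simp
  | insert i T hi ih =>
    rw [Finset.sum_insert hi]
    refine le_trans (cnt_mono fun x hx => ?_) ((cnt_or (P i) (fun x => ∃ i ∈ T, P i x)).trans (by gcongr))
    obtain ⟨j, hj, hx⟩ := hx
    rcases Finset.mem_insert.1 hj with rfl | hj
    · exact Or.inl hx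
    · exact Or.inr ⟨j, hj, hx⟩

theorem cnt_bex_le {ι : Type*} (T : Finset ι) (P : ι → X → Prop) {B : ℝ} (h : ∀ i ∈ T, cnt (P i) ≤ B) :
    cnt (fun x => ∃ i ∈ T, P i x) ≤ T.card * B := by
  refine (cnt_bex T P).trans ((Finset.sum_le_sum h).trans ?_)
  rw [Finset.sum_const, nsmul_eq_mul]

end cnt

section fin

variable {K : Type*} [Field K] [Finite K]

theorem finite_natDegree_le (d : ℕ) : ({f : K[X] | f.natDegree ≤ d} : Set K[X]).Finite := by
  refine Set.Finite.of_injOn (f := fun f : K[X] => (fun i : Fin (d + 1) => f.coeff i)) (t := Set.univ)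
    (fun _ _ => Set.mem_univ _) ?_ Set.finite_univ
  intro f hf g hg h
  ext i
  rcases Nat.lt_or_ge i (d + 1) with hi | hi
  · exact congrFun h ⟨i, hi⟩
  · rw [coeff_eq_zero_of_natDegree_lt (lt_of_le_of_lt hf hi), coeff_eq_zero_of_natDegree_lt (lt_of_le_of_lt hg hi)]

/-- a sum over a finite set of polynomials bounds a union -/
theorem cnt_finsum {X : Type*} [Finite X] {ι : Type*} {T : Set ι} (hT : T.Finite) (P : ι → X → Prop) (r : ι → ℝ) (m B : ℝ)
    (hr : ∀ i ∈ T, cnt (P i) ≤ m * r i) (hm : 0 ≤ m) (hB : (∑ᶠ i ∈ T, r i) ≤ B) :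
    cnt (fun x => ∃ i ∈ T, P i x) ≤ m * B := by
  have h1 : (∑ᶠ i ∈ T, r i) = ∑ i ∈ hT.toFinset, r i := finsum_mem_eq_finite_toFinset_sum _ hT
  calc cnt (fun x => ∃ i ∈ T, P i x) ≤ cnt (fun x => ∃ i ∈ hT.toFinset, P i x) :=
        cnt_mono fun x ⟨i, hi, hx⟩ => ⟨i, hT.mem_toFinset.2 hi, hx⟩
    _ ≤ ∑ i ∈ hT.toFinset, cnt (P i) := cnt_bex _ _
    _ ≤ ∑ i ∈ hT.toFinset, m * r i := Finset.sum_le_sum fun i hi => hr i (hT.mem_toFinset.1 hi)
    _ = m * ∑ i ∈ hT.toFinset, r i := by rw [Finset.mul_sum]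
    _ ≤ m * B := by rw [← h1]; exact mul_le_mul_of_nonneg_left hB hm

end fin

/-! ### roots of unity -/

section cyc

variable {K : Type*} [Field K]

/-- the irreducible polynomials with a root of small order -/
def Cyc (k : ℕ) (f : K[X]) : Prop :=
  ∃ m, 1 ≤ m ∧ m < k ∧ ∃ a : AlgebraicClosure K, aeval a f = 0 ∧ a ^ (2 * m) = 1

theorem B2.symm {k : ℕ} {f h : K[X]} (hh : B2 k f h) : B2 k h f := by
  obtain ⟨m, h1, h2, a, b, ha, hb, hab⟩ := hh
  exact ⟨m, h1, h2, b, a, hb, ha, hab.symm⟩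

theorem cyc_of_b2 {k : ℕ} {f h s : K[X]} (hs : s = 1 ∨ s = X ^ 2 - 1) (hd : h ∣ s) (hb2 : B2 k f h) : Cyc k f := by
  obtain ⟨m, h1, h2, a, b, ha, hb, hab⟩ := hb2
  refine ⟨m, h1, h2, a, ha, ?_⟩
  have h3 : aeval b s = 0 := by
    obtain ⟨t, rfl⟩ := hd
    rw [map_mul, hb, zero_mul]
  have h4 : b ^ 2 = 1 := by
    rcases hs with rfl | rfl
    · simp at h3
    · have : b ^ 2 - 1 = 0 := by simpa using h3
      exact sub_eq_zero.1 this
  calc a ^ (2 * m) = (a ^ m) ^ 2 := by rw [← pow_mul, mul_comm]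
    _ = (b ^ m) ^ 2 := by rw [hab]
    _ = (b ^ 2) ^ m := by rw [← pow_mul, ← pow_mul, mul_comm]
    _ = 1 := by rw [h4, one_pow]

/-- there are few irreducible polynomials with a root of small order -/
theorem exists_cyc (k : ℕ) : ∃ T : Finset K[X], T.card ≤ k ^ 2 ∧ ∀ f, Irr' f → Cyc k f → f ∈ T := by
  classical
  let U : Finset (AlgebraicClosure K) := (Finset.range k).biUnion fun m => (nthRoots (2 * m) (1 : AlgebraicClosure K)).toFinset
  refine ⟨U.image (minpoly K), ?_, ?_⟩
  · refine Finset.card_image_le.trans (Finset.card_biUnion_le.trans ?_)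
    calc ∑ m ∈ Finset.range k, ((nthRoots (2 * m) (1 : AlgebraicClosure K)).toFinset).card
        ≤ ∑ m ∈ Finset.range k, 2 * m :=
          Finset.sum_le_sum fun m _ => (Multiset.toFinset_card_le _).trans (card_nthRoots _ _)
      _ = k * (k - 1) := by
          rw [← Finset.mul_sum, mul_comm, Finset.sum_range_id_mul_two]
      _ ≤ k ^ 2 := by rw [sq]; exact Nat.mul_le_mul_left _ (Nat.sub_le _ _)
  · rintro f hf ⟨m, h1, h2, a, ha, hm⟩
    refine Finset.mem_image.2 ⟨a, ?_, ?_⟩
    · refine Finset.mem_biUnion.2 ⟨m, Finset.mem_range.2 h2, ?_⟩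
      rw [Multiset.mem_toFinset, mem_nthRoots (by omega)]
      exact hm
    · exact (minpoly.eq_of_irreducible_of_monic hf.2.1 ha hf.1).symm

end cyc

end Cfsg.Agent.H926.RG
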