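import Cfsg.Agent.H926.RG.CoreLin

/-!
# S5714, core estimate: almost all elements are good, from the occurrence bounds and the sums over irreducible polynomials
-/

set_option autoImplicit false

namespace Cfsg.Agent.H926.RG

open Polynomial Module Cfsg.Agent.H141.Rg

/-- `dv_le` -/
def DvLe : Prop := ∀ (K V : Type) [Field K] [Finite K] [AddCommGroup V] [Module K V] [Finite V] (X : Type) [Group X]
    [Finite X] (σ : K →+* K) (τ : X →* (V →ₗ[K] V)) (s : K[X]) (c : ℕ → ℝ), EL σ τ s c → ∀ f : K[X], Irr' f →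
    IsCoprime f s → (Nat.card {x : X // Dv (τ x) f} : ℝ) * ((Nat.card K : ℝ) ^ f.natDegree - 1) ≤
      c f.natDegree * Real.sqrt ((Nat.card K : ℝ) ^ ed σ f) * Nat.card X

/-- `dv2_le` -/
def Dv2Le : Prop := ∀ (K V : Type) [Field K] [Finite K] [AddCommGroup V] [Module K V] [Finite V] (X : Type) [Group X]
    [Finite X] (σ : K →+* K) (τ : X →* (V →ₗ[K] V)) (s : K[X]) (c : ℕ → ℝ), EL σ τ s c → ∀ f g : K[X], Irr' f → Irr' g →
    f ≠ g → IsCoprime f s → IsCoprime g s →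
    (Nat.card {x : X // Dv (τ x) f ∧ Dv (τ x) g} : ℝ) * (((Nat.card K : ℝ) ^ f.natDegree - 1) *
      ((Nat.card K : ℝ) ^ g.natDegree - 1)) ≤
      c (f.natDegree + g.natDegree) * Real.sqrt ((Nat.card K : ℝ) ^ ed σ (f * g)) * Nat.card X

/-- `rep2_le` -/
def Rep2Le : Prop := ∀ (K V : Type) [Field K] [Finite K] [AddCommGroup V] [Module K V] [Finite V] (X : Type) [Group X]
    [Finite X] (σ : K →+* K) (τ : X →* (V →ₗ[K] V)) (s : K[X]) (c : ℕ → ℝ), EL σ τ s c → ∀ f : K[X], Irr' f →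
    IsCoprime f s → (Nat.card {x : X // Rep2 (τ x) f} : ℝ) ≤
      (c f.natDegree * Real.sqrt ((Nat.card K : ℝ) ^ ed σ f) / ((Nat.card K : ℝ) ^ (2 * f.natDegree) - 1) +
       c (2 * f.natDegree) * Real.sqrt ((Nat.card K : ℝ) ^ ed σ (f ^ 2)) / ((Nat.card K : ℝ) ^ f.natDegree *
        ((Nat.card K : ℝ) ^ f.natDegree - 1))) * Nat.card X

/-- `sum_b1` -/
def SumB1 (A : ℝ) : Prop := ∀ (K : Type) [Field K] [Finite K] (σ : K →+* K), (∀ x, σ (σ x) = x) → ∀ k d : ℕ, 1 ≤ d →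
    (∑ᶠ f ∈ {f : K[X] | Irr' f ∧ f.natDegree = d ∧ B1 k f}, Real.sqrt ((Nat.card K : ℝ) ^ ed σ f) / ((Nat.card K : ℝ) ^ d - 1)) ≤
      A * k ^ 3 * d * (Nat.card K : ℝ) ^ (-(d : ℝ) / 6)

/-- `sum_b2` -/
def SumB2 (A : ℝ) : Prop := ∀ (K : Type) [Field K] [Finite K] (σ : K →+* K), (∀ x, σ (σ x) = x) → ∀ k d e : ℕ,
    1 ≤ e → e ≤ d →
    (∑ᶠ p ∈ {p : K[X] × K[X] | Irr' p.1 ∧ Irr' p.2 ∧ p.1.natDegree = d ∧ p.2.natDegree = e ∧ p.1 ≠ p.2 ∧ B2 k p.1 p.2},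
      Real.sqrt ((Nat.card K : ℝ) ^ ed σ (p.1 * p.2)) / (((Nat.card K : ℝ) ^ d - 1) * ((Nat.card K : ℝ) ^ e - 1))) ≤
      A * k ^ 3 * d * (Nat.card K : ℝ) ^ (-(d : ℝ) / 2)

/-- `sum_rep` -/
def SumRep (A : ℝ) : Prop := ∀ (K : Type) [Field K] [Finite K] (σ : K →+* K), (∀ x, σ (σ x) = x) → ∀ d : ℕ, 1 ≤ d →
    (∑ᶠ f ∈ {f : K[X] | Irr' f ∧ f.natDegree = d}, (Real.sqrt ((Nat.card K : ℝ) ^ ed σ f) / ((Nat.card K : ℝ) ^ (2 * d) - 1) +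
      Real.sqrt ((Nat.card K : ℝ) ^ ed σ (f ^ 2)) / ((Nat.card K : ℝ) ^ d * ((Nat.card K : ℝ) ^ d - 1)))) ≤
      A * (Nat.card K : ℝ) ^ (-(d : ℝ) / 2)

/-- `goodPow_of` -/
def GoodOf : Prop := ∀ (K V : Type) [Field K] [Finite K] [AddCommGroup V] [Module K V] [Finite V] (y : V →ₗ[K] V),
    Function.Injective y → ∀ (S : Set K[X]), (∀ f ∈ S, Irr' f) → ∀ (k : ℕ),
    (∀ f, Irr' f → f ∉ S → Dv y f → ¬ Rep2 y f ∧ ¬ B1 k f) →
    (∀ f g, Irr' f → Irr' g → f ∉ S → f ≠ g → Dv y f → Dv y g → ¬ B2 k f g) → GoodPow y (smallP y S) k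

section

variable {K V : Type} [Field K] [Finite K] [AddCommGroup V] [Module K V] [Finite V] {X : Type} [Group X] [Finite X]
  {σ : K →+* K} {τ : X →* (V →ₗ[K] V)} {s : K[X]} {c : ℕ → ℝ} {k L : ℕ} {M : ℝ}

omit [Finite K] [Finite V] [Finite X] in
theorem inj_of (τ : X →* (V →ₗ[K] V)) (x : X) : Function.Injective (τ x) := by
  intro v w h
  have : ∀ u : V, τ x⁻¹ (τ x u) = u := fun u => by
    have h1 : (τ x⁻¹ * τ x) u = u := by rw [← map_mul]; simp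
    exact h1
  rw [← this v, h, this w]

/-- the four bad events -/
theorem bad_cases (hG : GoodOf) (hs : s = 1 ∨ s = Polynomial.X ^ 2 - 1) (hL : 1 ≤ L) {x : X}
    (hx : ¬ GoodPow (τ x) (smallP (τ x) (Sml L s)) k) :
    (∃ f : K[X], Irr' f ∧ IsCoprime f s ∧ L ≤ f.natDegree ∧ 2 * f.natDegree ≤ finrank K V ∧ Rep2 (τ x) f) ∨
    (∃ f : K[X], Irr' f ∧ IsCoprime f s ∧ L ≤ f.natDegree ∧ f.natDegree ≤ finrank K V ∧ Dv (τ x) f ∧ B1 k f) ∨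
    (∃ f g : K[X], Irr' f ∧ Irr' g ∧ f ≠ g ∧ IsCoprime f s ∧ IsCoprime g s ∧ L ≤ f.natDegree ∧ 1 ≤ g.natDegree ∧
      g.natDegree ≤ f.natDegree ∧ f.natDegree + g.natDegree ≤ finrank K V ∧ (Dv (τ x) f ∧ Dv (τ x) g) ∧ B2 k f g) ∨
    (∃ f : K[X], Irr' f ∧ IsCoprime f s ∧ L ≤ f.natDegree ∧ f.natDegree ≤ finrank K V ∧ Dv (τ x) f ∧ Cyc k f) := by
  by_contra hcon
  push Not at hcon
  obtain ⟨n1, n2, n3, n4⟩ := hcon
  apply hx
  have hout : ∀ f : K[X], Irr' f → f ∉ Sml L s → L ≤ f.natDegree ∧ IsCoprime f s := by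
    intro f hf hfs
    have h1 : ¬ (f.natDegree < L ∨ f ∣ s) := fun h => hfs ⟨hf, h⟩
    push Not at h1
    exact ⟨h1.1, hf.2.1.coprime_iff_not_dvd.2 h1.2⟩
  refine hG K V (τ x) (inj_of τ x) _ (fun f hf => hf.1) k ?_ ?_
  · intro f hf hfs hD
    obtain ⟨h1, h2⟩ := hout f hf hfs
    refine ⟨fun hR => n1 f hf h2 h1 (Rep2.deg_le hf hR) hR, fun hB => ?_⟩
    exact n2 f hf h2 h1 (Dv.deg_le hf.2.1 hD) hD hB
  · intro f g hf hg hfs hne hD hD' hB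
    obtain ⟨h1, h2⟩ := hout f hf hfs
    have hg1 : 1 ≤ g.natDegree := hg.2.1.natDegree_pos
    have hdd := dv2_deg_le hf hg hne hD hD'
    by_cases hgs : g ∣ s
    · exact n4 f hf h2 h1 (Dv.deg_le hf.2.1 hD) hD (cyc_of_b2 hs hgs hB)
    · have hgc : IsCoprime g s := hg.2.1.coprime_iff_not_dvd.2 hgs
      rcases le_total g.natDegree f.natDegree with hle | hle
      · exact n3 f g hf hg hne h2 hgc h1 hg1 hle hdd ⟨hD, hD'⟩ hB
      · exact n3 g f hg hf hne.symm hgc h2 (h1.trans hle) (hL.trans h1) hle (by rw [add_comm]; exact hdd) ⟨hD', hD⟩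
          (B2.symm hB)

end

section num

variable {K : Type} [Field K] [Finite K]

theorem two_le_card (K : Type) [Field K] [Finite K] : (2 : ℝ) ≤ (Nat.card K : ℝ) := by
  have : 1 < Nat.card K := Finite.one_lt_card
  exact_mod_cast this

theorem card_pow_pos (K : Type) [Field K] [Finite K] {d : ℕ} (hd : 1 ≤ d) : (0 : ℝ) < (Nat.card K : ℝ) ^ d - 1 := by
  have h2 := two_le_card K
  have : (1 : ℝ) < (Nat.card K : ℝ) ^ d := one_lt_pow₀ (by linarith) (by omega)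
  linarith

theorem ed_le {σ : K →+* K} {f : K[X]} (hf : f ≠ 0) : ed σ f ≤ f.natDegree :=
  by classical exact natDegree_le_of_dvd (EuclideanDomain.gcd_dvd_left _ _) hf

/-- `c D ≤ M |K| ^ t` for `D ≤ 16 t` -/
theorem c_le {c : ℕ → ℝ} {L n : ℕ} {M : ℝ} (hM0 : 0 ≤ M)
    (hM : ∀ D, L ≤ D → D ≤ n → c D * (Nat.card K : ℝ) ^ (-(D : ℝ) / 16) ≤ M) {D : ℕ} (h1 : L ≤ D) (h2 : D ≤ n) {t : ℝ}
    (ht : (D : ℝ) / 16 ≤ t) : c D ≤ M * (Nat.card K : ℝ) ^ t := by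
  have hQ := two_le_card K
  have hQ0 : (0 : ℝ) < Nat.card K := by linarith
  have h3 := hM D h1 h2
  have h4 : c D = c D * (Nat.card K : ℝ) ^ (-(D : ℝ) / 16) * (Nat.card K : ℝ) ^ ((D : ℝ) / 16) := by
    rw [mul_assoc, ← Real.rpow_add hQ0, neg_div, neg_add_cancel, Real.rpow_zero, mul_one]
  rw [h4]
  calc c D * (Nat.card K : ℝ) ^ (-(D : ℝ) / 16) * (Nat.card K : ℝ) ^ ((D : ℝ) / 16)
      ≤ M * (Nat.card K : ℝ) ^ ((D : ℝ) / 16) := by gcongr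
    _ ≤ M * (Nat.card K : ℝ) ^ t := by
      gcongr
      linarith

theorem rpow_le_one' {t : ℝ} (ht : t ≤ 0) : (Nat.card K : ℝ) ^ t ≤ 1 :=
  Real.rpow_le_one_of_one_le_of_nonpos (by linarith [two_le_card K]) ht

theorem rpow_comb {a b : ℝ} (h : a + b ≤ 0) : (Nat.card K : ℝ) ^ a * (Nat.card K : ℝ) ^ b ≤ 1 := by
  rw [← Real.rpow_add (by linarith [two_le_card K])]
  exact rpow_le_one' h

end num

section bounds

variable {K V : Type} [Field K] [Finite K] [AddCommGroup V] [Module K V] [Finite V] {X : Type} [Group X] [Finite X]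
  {σ : K →+* K} {τ : X →* (V →ₗ[K] V)} {s : K[X]} {c : ℕ → ℝ} {k L : ℕ} {M : ℝ}

omit [Group X] in
theorem cnt_and (p : Prop) (P : X → Prop) {B : ℝ} (hB : 0 ≤ B) (h : p → cnt P ≤ B) : cnt (fun x => p ∧ P x) ≤ B := by
  by_cases hp : p
  · exact (cnt_mono fun x hx => hx.2).trans (h hp)
  · rw [cnt_false fun x hx => hp hx.1]; exact hB

/-- repeated factors -/
theorem bound_rep (hR : Rep2Le) {A : ℝ} (hA0 : 0 ≤ A) (hA : SumRep A) (hσ : ∀ x, σ (σ x) = x) (hEL : EL σ τ s c) (hM0 : 0 ≤ M) (hL : 1 ≤ L)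
    (hM : ∀ D, L ≤ D → D ≤ finrank K V → c D * (Nat.card K : ℝ) ^ (-(D : ℝ) / 16) ≤ M) {d : ℕ} (h1 : L ≤ d) :
    cnt (fun x : X => ∃ f ∈ {f : K[X] | Irr' f ∧ f.natDegree = d}, (IsCoprime f s ∧ 2 * d ≤ finrank K V) ∧ Rep2 (τ x) f) ≤
      A * M * Nat.card X := by
  have hd1 : 1 ≤ d := hL.trans h1
  have hQ := two_le_card K
  have hQ0 : (0 : ℝ) < Nat.card K := by linarith
  have hN : (0 : ℝ) ≤ Nat.card X := Nat.cast_nonneg _
  have hfin : ({f : K[X] | Irr' f ∧ f.natDegree = d} : Set K[X]).Finite :=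
    (finite_natDegree_le d).subset fun f hf => le_of_eq hf.2
  have hp1 : (0 : ℝ) < (Nat.card K : ℝ) ^ (2 * d) - 1 := card_pow_pos K (by omega)
  have hp2 : (0 : ℝ) < (Nat.card K : ℝ) ^ d - 1 := card_pow_pos K hd1
  refine (cnt_finsum hfin _ _ (M * (Nat.card K : ℝ) ^ ((d : ℝ) / 8) * Nat.card X) _ ?_ (by positivity)
    (hA K σ hσ d hd1)).trans ?_
  · rintro f ⟨hf, rfl⟩
    refine cnt_and _ _ (by positivity) fun ⟨hc, h2⟩ => ?_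
    refine (hR K V X σ τ s c hEL f hf hc).trans ?_
    have e1 : c f.natDegree ≤ M * (Nat.card K : ℝ) ^ ((f.natDegree : ℝ) / 8) :=
      c_le hM0 hM h1 (by omega) (by have : (0 : ℝ) ≤ f.natDegree := Nat.cast_nonneg _; linarith)
    have e2 : c (2 * f.natDegree) ≤ M * (Nat.card K : ℝ) ^ ((f.natDegree : ℝ) / 8) :=
      c_le hM0 hM (by omega) h2 (by push_cast; linarith)
    have e3 : c f.natDegree * Real.sqrt ((Nat.card K : ℝ) ^ ed σ f) / ((Nat.card K : ℝ) ^ (2 * f.natDegree) - 1) +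
       c (2 * f.natDegree) * Real.sqrt ((Nat.card K : ℝ) ^ ed σ (f ^ 2)) / ((Nat.card K : ℝ) ^ f.natDegree *
        ((Nat.card K : ℝ) ^ f.natDegree - 1)) ≤
       (M * (Nat.card K : ℝ) ^ ((f.natDegree : ℝ) / 8)) * Real.sqrt ((Nat.card K : ℝ) ^ ed σ f) / ((Nat.card K : ℝ) ^ (2 * f.natDegree) - 1) +
       (M * (Nat.card K : ℝ) ^ ((f.natDegree : ℝ) / 8)) * Real.sqrt ((Nat.card K : ℝ) ^ ed σ (f ^ 2)) / ((Nat.card K : ℝ) ^ f.natDegree *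
        ((Nat.card K : ℝ) ^ f.natDegree - 1)) := by
      have hp3 : (0 : ℝ) < (Nat.card K : ℝ) ^ f.natDegree * ((Nat.card K : ℝ) ^ f.natDegree - 1) := by positivity
      gcongr
    calc _ ≤ _ := mul_le_mul_of_nonneg_right e3 hN
      _ = _ := by ring
  · have h3 : (Nat.card K : ℝ) ^ ((d : ℝ) / 8) * (Nat.card K : ℝ) ^ (-(d : ℝ) / 2) ≤ 1 :=
      rpow_comb (by have : (0 : ℝ) ≤ d := Nat.cast_nonneg _; linarith)
    calc M * (Nat.card K : ℝ) ^ ((d : ℝ) / 8) * Nat.card X * (A * (Nat.card K : ℝ) ^ (-(d : ℝ) / 2))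
        = A * M * Nat.card X * ((Nat.card K : ℝ) ^ ((d : ℝ) / 8) * (Nat.card K : ℝ) ^ (-(d : ℝ) / 2)) := by ring
      _ ≤ A * M * Nat.card X * 1 := by gcongr
      _ = A * M * Nat.card X := mul_one _

/-- coincidences between the roots of one polynomial -/
theorem bound_b1 (hD : DvLe) {A : ℝ} (hA0 : 0 ≤ A) (hA : SumB1 A) (hσ : ∀ x, σ (σ x) = x) (hEL : EL σ τ s c) (hM0 : 0 ≤ M) (hL : 1 ≤ L)
    (hM : ∀ D, L ≤ D → D ≤ finrank K V → c D * (Nat.card K : ℝ) ^ (-(D : ℝ) / 16) ≤ M) {d : ℕ} (h1 : L ≤ d)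
    (h2 : d ≤ finrank K V) :
    cnt (fun x : X => ∃ f ∈ {f : K[X] | Irr' f ∧ f.natDegree = d ∧ B1 k f}, IsCoprime f s ∧ Dv (τ x) f) ≤
      A * k ^ 3 * d * M * Nat.card X := by
  have hd1 : 1 ≤ d := hL.trans h1
  have hQ := two_le_card K
  have hQ0 : (0 : ℝ) < Nat.card K := by linarith
  have hN : (0 : ℝ) ≤ Nat.card X := Nat.cast_nonneg _
  have hfin : ({f : K[X] | Irr' f ∧ f.natDegree = d ∧ B1 k f} : Set K[X]).Finite :=
    (finite_natDegree_le d).subset fun f hf => le_of_eq hf.2.1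
  have hp2 : (0 : ℝ) < (Nat.card K : ℝ) ^ d - 1 := card_pow_pos K hd1
  refine (cnt_finsum hfin _ _ (M * (Nat.card K : ℝ) ^ ((d : ℝ) / 16) * Nat.card X) _ ?_ (by positivity)
    (hA K σ hσ k d hd1)).trans ?_
  · rintro f ⟨hf, rfl, -⟩
    refine cnt_and _ _ (by positivity) fun hc => ?_
    have e1 : c f.natDegree ≤ M * (Nat.card K : ℝ) ^ ((f.natDegree : ℝ) / 16) := c_le hM0 hM h1 h2 le_rfl
    rw [← mul_div_assoc, le_div_iff₀ hp2]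
    refine (hD K V X σ τ s c hEL f hf hc).trans ?_
    calc c f.natDegree * Real.sqrt ((Nat.card K : ℝ) ^ ed σ f) * Nat.card X
        ≤ (M * (Nat.card K : ℝ) ^ ((f.natDegree : ℝ) / 16)) * Real.sqrt ((Nat.card K : ℝ) ^ ed σ f) * Nat.card X := by
          gcongr
      _ = _ := by ring
  · have h3 : (Nat.card K : ℝ) ^ ((d : ℝ) / 16) * (Nat.card K : ℝ) ^ (-(d : ℝ) / 6) ≤ 1 :=
      rpow_comb (by have : (0 : ℝ) ≤ d := Nat.cast_nonneg _; linarith)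
    calc M * (Nat.card K : ℝ) ^ ((d : ℝ) / 16) * Nat.card X * (A * k ^ 3 * d * (Nat.card K : ℝ) ^ (-(d : ℝ) / 6))
        = A * k ^ 3 * d * M * Nat.card X * ((Nat.card K : ℝ) ^ ((d : ℝ) / 16) * (Nat.card K : ℝ) ^ (-(d : ℝ) / 6)) := by ring
      _ ≤ A * k ^ 3 * d * M * Nat.card X * 1 := by gcongr
      _ = A * k ^ 3 * d * M * Nat.card X := mul_one _

/-- coincidences between the roots of two polynomials -/
theorem bound_b2 (hD : Dv2Le) {A : ℝ} (hA0 : 0 ≤ A) (hA : SumB2 A) (hσ : ∀ x, σ (σ x) = x) (hEL : EL σ τ s c) (hM0 : 0 ≤ M) (hL : 1 ≤ L)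
    (hM : ∀ D, L ≤ D → D ≤ finrank K V → c D * (Nat.card K : ℝ) ^ (-(D : ℝ) / 16) ≤ M) {d e : ℕ} (h1 : L ≤ d)
    (he : 1 ≤ e) (hed : e ≤ d) (h2 : d + e ≤ finrank K V) :
    cnt (fun x : X => ∃ p ∈ {p : K[X] × K[X] | Irr' p.1 ∧ Irr' p.2 ∧ p.1.natDegree = d ∧ p.2.natDegree = e ∧ p.1 ≠ p.2 ∧
      B2 k p.1 p.2}, (IsCoprime p.1 s ∧ IsCoprime p.2 s) ∧ (Dv (τ x) p.1 ∧ Dv (τ x) p.2)) ≤
      A * k ^ 3 * d * M * Nat.card X := by
  have hd1 : 1 ≤ d := hL.trans h1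
  have hQ := two_le_card K
  have hQ0 : (0 : ℝ) < Nat.card K := by linarith
  have hN : (0 : ℝ) ≤ Nat.card X := Nat.cast_nonneg _
  have hfin : ({p : K[X] × K[X] | Irr' p.1 ∧ Irr' p.2 ∧ p.1.natDegree = d ∧ p.2.natDegree = e ∧ p.1 ≠ p.2 ∧
      B2 k p.1 p.2} : Set (K[X] × K[X])).Finite :=
    ((finite_natDegree_le (K := K) d).prod (finite_natDegree_le (K := K) e)).subset
      fun p hp => ⟨le_of_eq hp.2.2.1, le_of_eq hp.2.2.2.1⟩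
  have hp1 : (0 : ℝ) < (Nat.card K : ℝ) ^ e - 1 := card_pow_pos K he
  have hp2 : (0 : ℝ) < (Nat.card K : ℝ) ^ d - 1 := card_pow_pos K hd1
  refine (cnt_finsum hfin _ _ (M * (Nat.card K : ℝ) ^ ((d : ℝ) / 8) * Nat.card X) _ ?_ (by positivity)
    (hA K σ hσ k d e he hed)).trans ?_
  · rintro ⟨f, g⟩ ⟨hf, hg, rfl, rfl, hne, -⟩
    dsimp only at *
    refine cnt_and _ _ (by positivity) fun hc => ?_
    have e1 : c (f.natDegree + g.natDegree) ≤ M * (Nat.card K : ℝ) ^ ((f.natDegree : ℝ) / 8) :=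
      c_le hM0 hM (by omega) h2 (by
        have : (g.natDegree : ℝ) ≤ f.natDegree := by exact_mod_cast hed
        push_cast; linarith)
    rw [← mul_div_assoc, le_div_iff₀ (mul_pos hp2 hp1)]
    refine (hD K V X σ τ s c hEL f g hf hg hne hc.1 hc.2).trans ?_
    calc c (f.natDegree + g.natDegree) * Real.sqrt ((Nat.card K : ℝ) ^ ed σ (f * g)) * Nat.card X
        ≤ (M * (Nat.card K : ℝ) ^ ((f.natDegree : ℝ) / 8)) * Real.sqrt ((Nat.card K : ℝ) ^ ed σ (f * g)) * Nat.card X := by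
          gcongr
      _ = _ := by ring
  · have h3 : (Nat.card K : ℝ) ^ ((d : ℝ) / 8) * (Nat.card K : ℝ) ^ (-(d : ℝ) / 2) ≤ 1 :=
      rpow_comb (by have : (0 : ℝ) ≤ d := Nat.cast_nonneg _; linarith)
    calc M * (Nat.card K : ℝ) ^ ((d : ℝ) / 8) * Nat.card X * (A * k ^ 3 * d * (Nat.card K : ℝ) ^ (-(d : ℝ) / 2))
        = A * k ^ 3 * d * M * Nat.card X * ((Nat.card K : ℝ) ^ ((d : ℝ) / 8) * (Nat.card K : ℝ) ^ (-(d : ℝ) / 2)) := by ring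
      _ ≤ A * k ^ 3 * d * M * Nat.card X * 1 := by gcongr
      _ = A * k ^ 3 * d * M * Nat.card X := mul_one _

/-- roots of unity -/
theorem bound_cyc (hD : DvLe) (hEL : EL σ τ s c) (hM0 : 0 ≤ M) (hL : 1 ≤ L)
    (hM : ∀ D, L ≤ D → D ≤ finrank K V → c D * (Nat.card K : ℝ) ^ (-(D : ℝ) / 16) ≤ M) {f : K[X]} (hf : Irr' f)
    (hc : IsCoprime f s) (h1 : L ≤ f.natDegree) (h2 : f.natDegree ≤ finrank K V) :
    cnt (fun x : X => Dv (τ x) f) ≤ 2 * M * Nat.card X := by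
  have hd1 : 1 ≤ f.natDegree := hL.trans h1
  have hQ := two_le_card K
  have hQ0 : (0 : ℝ) < Nat.card K := by linarith
  have hN : (0 : ℝ) ≤ Nat.card X := Nat.cast_nonneg _
  have hp2 : (0 : ℝ) < (Nat.card K : ℝ) ^ f.natDegree - 1 := card_pow_pos K hd1
  have e1 : c f.natDegree ≤ M * (Nat.card K : ℝ) ^ ((f.natDegree : ℝ) / 16) := c_le hM0 hM h1 h2 le_rfl
  have e2 : Real.sqrt ((Nat.card K : ℝ) ^ ed σ f) ≤ (Nat.card K : ℝ) ^ ((f.natDegree : ℝ) / 2) := by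
    rw [Real.sqrt_le_left (by positivity), ← Real.rpow_natCast _ 2, ← Real.rpow_mul hQ0.le, ← Real.rpow_natCast]
    refine Real.rpow_le_rpow_of_exponent_le (by linarith) ?_
    have : ((ed σ f : ℕ) : ℝ) ≤ f.natDegree := by exact_mod_cast ed_le hf.1.ne_zero
    push_cast
    linarith
  have e3 : (Nat.card K : ℝ) ^ f.natDegree ≤ 2 * ((Nat.card K : ℝ) ^ f.natDegree - 1) := by
    have : (Nat.card K : ℝ) ^ 1 ≤ (Nat.card K : ℝ) ^ f.natDegree := pow_le_pow_right₀ (by linarith) hd1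
    rw [pow_one] at this
    linarith
  have e4 : (Nat.card K : ℝ) ^ ((f.natDegree : ℝ) / 16) * (Nat.card K : ℝ) ^ ((f.natDegree : ℝ) / 2) ≤
      (Nat.card K : ℝ) ^ f.natDegree := by
    rw [← Real.rpow_add hQ0, ← Real.rpow_natCast]
    refine Real.rpow_le_rpow_of_exponent_le (by linarith) ?_
    have : (0 : ℝ) ≤ f.natDegree := Nat.cast_nonneg _
    linarith
  have key : cnt (fun x : X => Dv (τ x) f) * ((Nat.card K : ℝ) ^ f.natDegree - 1) ≤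
      (2 * M * Nat.card X) * ((Nat.card K : ℝ) ^ f.natDegree - 1) :=
    calc cnt (fun x : X => Dv (τ x) f) * ((Nat.card K : ℝ) ^ f.natDegree - 1)
        ≤ c f.natDegree * Real.sqrt ((Nat.card K : ℝ) ^ ed σ f) * Nat.card X := hD K V X σ τ s c hEL f hf hc
      _ ≤ (M * (Nat.card K : ℝ) ^ ((f.natDegree : ℝ) / 16)) * (Nat.card K : ℝ) ^ ((f.natDegree : ℝ) / 2) * Nat.card X := by
          gcongr
      _ = M * ((Nat.card K : ℝ) ^ ((f.natDegree : ℝ) / 16) * (Nat.card K : ℝ) ^ ((f.natDegree : ℝ) / 2)) * Nat.card X := by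
          ring
      _ ≤ M * (2 * ((Nat.card K : ℝ) ^ f.natDegree - 1)) * Nat.card X :=
          mul_le_mul_of_nonneg_right (mul_le_mul_of_nonneg_left (e4.trans e3) hM0) hN
      _ = _ := by ring
  exact le_of_mul_le_mul_right key hp2

end bounds

/-- almost all elements are good -/
theorem core_of (hD : DvLe) (hD2 : Dv2Le) (hR : Rep2Le) (hB1 : ∃ A : ℝ, 0 < A ∧ SumB1 A) (hB2 : ∃ A : ℝ, 0 < A ∧ SumB2 A)
    (hSR : ∃ A : ℝ, 0 < A ∧ SumRep A) (hG : GoodOf) :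
    ∃ A : ℝ, 0 < A ∧ ∀ (K V : Type) [Field K] [Finite K] [AddCommGroup V] [Module K V] [Finite V] (X : Type) [Group X]
    [Finite X] (σ : K →+* K), (∀ x, σ (σ x) = x) → ∀ (τ : X →* (V →ₗ[K] V)) (s : K[X]), (s = 1 ∨ s = Polynomial.X ^ 2 - 1) →
    ∀ (c : ℕ → ℝ), (∀ D, 1 ≤ c D) → EL σ τ s c → ∀ (k L : ℕ) (M : ℝ), 0 ≤ M → 1 ≤ k → 1 ≤ L →
    (∀ D, L ≤ D → D ≤ finrank K V → c D * (Nat.card K : ℝ) ^ (-(D : ℝ) / 16) ≤ M) →
    (Nat.card {x : X // ¬ GoodPow (τ x) (smallP (τ x) (Sml L s)) k} : ℝ) ≤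
      A * k ^ 3 * ((finrank K V : ℝ) + 1) ^ 3 * M * Nat.card X := by
  obtain ⟨A1, hA1, hB1⟩ := hB1
  obtain ⟨A2, hA2, hB2⟩ := hB2
  obtain ⟨A3, hA3, hSR⟩ := hSR
  refine ⟨A3 + A1 + A2 + 2, by positivity, ?_⟩
  intro K V _ _ _ _ _ X _ _ σ hσ τ s hs c hc1 hEL k L M hM0 hk hL hM
  classical
  obtain ⟨T, hT, hT'⟩ := exists_cyc (K := K) k
  set n := finrank K V with hn
  have hN : (0 : ℝ) ≤ Nat.card X := Nat.cast_nonneg _
  -- the events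
  let E1 : ℕ → X → Prop := fun d x => ∃ f ∈ {f : K[X] | Irr' f ∧ f.natDegree = d}, (IsCoprime f s ∧ 2 * d ≤ n) ∧ Rep2 (τ x) f
  let E2 : ℕ → X → Prop := fun d x => ∃ f ∈ {f : K[X] | Irr' f ∧ f.natDegree = d ∧ B1 k f}, IsCoprime f s ∧ Dv (τ x) f
  let E3 : ℕ × ℕ → X → Prop := fun p x => (L ≤ p.1 ∧ 1 ≤ p.2 ∧ p.2 ≤ p.1 ∧ p.1 + p.2 ≤ n) ∧
    ∃ q ∈ {q : K[X] × K[X] | Irr' q.1 ∧ Irr' q.2 ∧ q.1.natDegree = p.1 ∧ q.2.natDegree = p.2 ∧ q.1 ≠ q.2 ∧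
      B2 k q.1 q.2}, (IsCoprime q.1 s ∧ IsCoprime q.2 s) ∧ (Dv (τ x) q.1 ∧ Dv (τ x) q.2)
  let E4 : K[X] → X → Prop := fun f x => (Irr' f ∧ IsCoprime f s ∧ L ≤ f.natDegree ∧ f.natDegree ≤ n) ∧ Dv (τ x) f
  have hsub : ∀ x : X, ¬ GoodPow (τ x) (smallP (τ x) (Sml L s)) k →
      (∃ d ∈ Finset.Icc L n, E1 d x) ∨ (∃ d ∈ Finset.Icc L n, E2 d x) ∨
      (∃ p ∈ (Finset.Icc 1 n) ×ˢ (Finset.Icc 1 n), E3 p x) ∨ (∃ f ∈ T, E4 f x) := by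
    intro x hx
    rcases bad_cases hG hs hL hx with ⟨f, hf, h1, h2, h3, h4⟩ | ⟨f, hf, h1, h2, h3, h4, h5⟩ |
      ⟨f, g, hf, hg, hne, h1, h2, h3, h4, h5, h6, h7, h8⟩ | ⟨f, hf, h1, h2, h3, h4, h5⟩
    · exact Or.inl ⟨f.natDegree, Finset.mem_Icc.2 ⟨h2, by omega⟩, f, ⟨hf, rfl⟩, ⟨h1, h3⟩, h4⟩
    · exact Or.inr (Or.inl ⟨f.natDegree, Finset.mem_Icc.2 ⟨h2, h3⟩, f, ⟨hf, rfl, h5⟩, h1, h4⟩)
    · exact Or.inr (Or.inr (Or.inl ⟨(f.natDegree, g.natDegree),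
        Finset.mem_product.2 ⟨Finset.mem_Icc.2 ⟨hL.trans h3, by omega⟩, Finset.mem_Icc.2 ⟨h4, by omega⟩⟩,
        ⟨h3, h4, h5, h6⟩, (f, g), ⟨hf, hg, rfl, rfl, hne, h8⟩, ⟨h1, h2⟩, h7⟩))
    · exact Or.inr (Or.inr (Or.inr ⟨f, hT' f hf h5, ⟨hf, h1, h2, h3⟩, h4⟩))
  have hdn : ∀ d : ℕ, d ≤ n → (d : ℝ) ≤ (n : ℝ) := fun d h => by exact_mod_cast h
  have hcd : ((Finset.Icc L n).card : ℝ) ≤ n := by
    rw [Nat.card_Icc]; exact_mod_cast (by omega : n + 1 - L ≤ n)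
  have hcp : (((Finset.Icc 1 n) ×ˢ (Finset.Icc 1 n)).card : ℝ) = (n : ℝ) * n := by
    rw [Finset.card_product, Nat.card_Icc]; push_cast; simp
  have b1 : cnt (fun x => ∃ d ∈ Finset.Icc L n, E1 d x) ≤ n * (A3 * M * Nat.card X) := by
    refine (cnt_bex_le _ E1 (B := A3 * M * Nat.card X) fun d hd => ?_).trans (by gcongr)
    exact bound_rep hR hA3.le hSR hσ hEL hM0 hL hM (Finset.mem_Icc.1 hd).1
  have b2 : cnt (fun x => ∃ d ∈ Finset.Icc L n, E2 d x) ≤ n * (A1 * k ^ 3 * n * M * Nat.card X) := by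
    refine (cnt_bex_le _ E2 (B := A1 * k ^ 3 * n * M * Nat.card X) fun d hd => ?_).trans (by gcongr)
    have hd' := Finset.mem_Icc.1 hd
    refine (bound_b1 hD hA1.le hB1 hσ hEL hM0 hL hM hd'.1 hd'.2).trans ?_
    have := hdn d hd'.2
    gcongr
  have b3 : cnt (fun x => ∃ p ∈ (Finset.Icc 1 n) ×ˢ (Finset.Icc 1 n), E3 p x) ≤
      (n * n) * (A2 * k ^ 3 * n * M * Nat.card X) := by
    refine (cnt_bex_le _ E3 (B := A2 * k ^ 3 * n * M * Nat.card X) fun p hp => ?_).trans (by rw [hcp])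
    refine cnt_and _ _ (by positivity) fun hq => ?_
    refine (bound_b2 hD2 hA2.le hB2 hσ hEL hM0 hL hM hq.1 hq.2.1 hq.2.2.1 hq.2.2.2).trans ?_
    have := hdn p.1 (by omega)
    gcongr
  have b4 : cnt (fun x => ∃ f ∈ T, E4 f x) ≤ (k : ℝ) ^ 2 * (2 * M * Nat.card X) := by
    refine (cnt_bex_le _ E4 (B := 2 * M * Nat.card X) fun f _ => ?_).trans (by
      have : (T.card : ℝ) ≤ (k : ℝ) ^ 2 := by exact_mod_cast hT
      gcongr)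
    refine cnt_and _ _ (by positivity) fun hq => ?_
    exact bound_cyc hD hEL hM0 hL hM hq.1 hq.2.1 hq.2.2.1 hq.2.2.2
  have hkr : (1 : ℝ) ≤ k := by exact_mod_cast hk
  have hnr : (0 : ℝ) ≤ (n : ℝ) := Nat.cast_nonneg _
  have hk3 : (1 : ℝ) ≤ (k : ℝ) ^ 3 := one_le_pow₀ hkr
  have hMN : (0 : ℝ) ≤ M * Nat.card X := mul_nonneg hM0 hN
  have hn1 : (1 : ℝ) ≤ (n : ℝ) + 1 := by linarith
  have g1 : (n : ℝ) ≤ (k : ℝ) ^ 3 * ((n : ℝ) + 1) ^ 3 :=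
    calc (n : ℝ) ≤ 1 * ((n : ℝ) + 1) ^ 1 := by linarith
      _ ≤ (k : ℝ) ^ 3 * ((n : ℝ) + 1) ^ 3 := by gcongr; norm_num
  have g2 : (n : ℝ) * n ≤ ((n : ℝ) + 1) ^ 3 :=
    calc (n : ℝ) * n ≤ ((n : ℝ) + 1) ^ 2 := by nlinarith
      _ ≤ ((n : ℝ) + 1) ^ 3 := by gcongr; norm_num
  have g3 : (n : ℝ) * n * n ≤ ((n : ℝ) + 1) ^ 3 := by nlinarith [mul_nonneg hnr hnr]
  have g4 : (k : ℝ) ^ 2 ≤ (k : ℝ) ^ 3 * ((n : ℝ) + 1) ^ 3 :=
    calc (k : ℝ) ^ 2 = (k : ℝ) ^ 2 * 1 := (mul_one _).symm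
      _ ≤ (k : ℝ) ^ 3 * ((n : ℝ) + 1) ^ 3 := by
        gcongr
        · norm_num
        · exact one_le_pow₀ hn1
  calc (Nat.card {x : X // ¬ GoodPow (τ x) (smallP (τ x) (Sml L s)) k} : ℝ)
      ≤ cnt (fun x => (∃ d ∈ Finset.Icc L n, E1 d x) ∨ (∃ d ∈ Finset.Icc L n, E2 d x) ∨
      (∃ p ∈ (Finset.Icc 1 n) ×ˢ (Finset.Icc 1 n), E3 p x) ∨ (∃ f ∈ T, E4 f x)) := cnt_mono hsub
    _ ≤ n * (A3 * M * Nat.card X) + (n * (A1 * k ^ 3 * n * M * Nat.card X) +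
        ((n * n) * (A2 * k ^ 3 * n * M * Nat.card X) + (k : ℝ) ^ 2 * (2 * M * Nat.card X))) := by
      refine (cnt_or _ _).trans (add_le_add b1 ?_)
      refine (cnt_or _ _).trans (add_le_add b2 ?_)
      exact (cnt_or _ _).trans (add_le_add b3 b4)
    _ = A3 * (M * Nat.card X) * n + A1 * (M * Nat.card X) * (k ^ 3 * (n * n)) +
        A2 * (M * Nat.card X) * (k ^ 3 * (n * n * n)) + 2 * (M * Nat.card X) * k ^ 2 := by ring
    _ ≤ A3 * (M * Nat.card X) * (k ^ 3 * ((n : ℝ) + 1) ^ 3) + A1 * (M * Nat.card X) * (k ^ 3 * ((n : ℝ) + 1) ^ 3) +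
        A2 * (M * Nat.card X) * (k ^ 3 * ((n : ℝ) + 1) ^ 3) + 2 * (M * Nat.card X) * (k ^ 3 * ((n : ℝ) + 1) ^ 3) := by
      gcongr
    _ = _ := by ring

end Cfsg.Agent.H926.RG
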