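import Cfsg.Agent.H926.RG.CoreOf
import Cfsg.Agent.H560.Rg.Dv
import Cfsg.Agent.H930.RG.GoodPow

/-!
# S5714, core estimate: only the three sums over irreducible polynomials as hypotheses
-/

set_option autoImplicit false

namespace Cfsg.Agent.H926.RG

open Polynomial Module Cfsg.Agent.H141.Rg

theorem dvLe : DvLe := fun K V _ _ _ _ _ X _ _ σ τ s c h f hf hs => H560.Rg.dv_le h hf hs

theorem dv2Le : Dv2Le := fun K V _ _ _ _ _ X _ _ σ τ s c h f g hf hg hfg hs hs' => H560.Rg.dv2_le h hf hg hfg hs hs'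

theorem rep2Le : Rep2Le := fun K V _ _ _ _ _ X _ _ σ τ s c h f hf hs => H560.Rg.rep2_le h hf hs

theorem goodOf : GoodOf := fun K V _ _ _ _ _ y hy S hS k h1 h2 => H930.RG.goodPow_of hy hS h1 h2

/-- almost all elements are good -/
theorem core_of_sums (hB1 : ∃ A : ℝ, 0 < A ∧ SumB1 A) (hB2 : ∃ A : ℝ, 0 < A ∧ SumB2 A)
    (hSR : ∃ A : ℝ, 0 < A ∧ SumRep A) :
    ∃ A : ℝ, 0 < A ∧ ∀ (K V : Type) [Field K] [Finite K] [AddCommGroup V] [Module K V] [Finite V] (X : Type) [Group X]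
    [Finite X] (σ : K →+* K), (∀ x, σ (σ x) = x) → ∀ (τ : X →* (V →ₗ[K] V)) (s : K[X]), (s = 1 ∨ s = Polynomial.X ^ 2 - 1) →
    ∀ (c : ℕ → ℝ), (∀ D, 1 ≤ c D) → EL σ τ s c → ∀ (k L : ℕ) (M : ℝ), 0 ≤ M → 1 ≤ k → 1 ≤ L →
    (∀ D, L ≤ D → D ≤ finrank K V → c D * (Nat.card K : ℝ) ^ (-(D : ℝ) / 16) ≤ M) →
    (Nat.card {x : X // ¬ GoodPow (τ x) (smallP (τ x) (Sml L s)) k} : ℝ) ≤
      A * k ^ 3 * ((finrank K V : ℝ) + 1) ^ 3 * M * Nat.card X :=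
  core_of dvLe dv2Le rep2Le hB1 hB2 hSR goodOf

end Cfsg.Agent.H926.RG
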